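import Mathlib
import Cfsg.Prelude.Def_SporadicB

/-!
# A criterion for non-split double covers (helper28)
-/

set_option autoImplicit false

namespace Cfsg.Agent.Lib.Helper28

theorem nonsplit_double_cover {H K : Type*} [Group H] [Group K] (hfin : Finite K)
    (Z : Subgroup H) [Z.Normal] (hZc : Z ≤ Subgroup.center H) (hZ2 : Nat.card Z = 2)
    (hK : Subgroup.center K = ⊥) (hcard : Nat.card H = 2 * Nat.card K)
    (f : K →* H ⧸ Z) (hf : Function.Surjective f) (hidx : ∀ L : Subgroup H, L.index ≠ 2) :
    Cfsg.IsNonsplitDoubleCover H K := by
  have h1 : Nat.card Z * Z.index = Nat.card H := Z.card_mul_index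
  have h2 : Nat.card K = Nat.card (H ⧸ Z) := by
    have : Z.index = Nat.card (H ⧸ Z) := rfl
    rw [hZ2, hcard] at h1
    omega
  have hb : Function.Bijective f := (Nat.bijective_iff_surjective_and_card f).mpr ⟨hf, h2⟩
  let e : K ≃* H ⧸ Z := MulEquiv.ofBijective f hb
  have hle : Subgroup.center H ≤ Z := by
    intro c hc
    have hcq : e.symm (c : H ⧸ Z) ∈ Subgroup.center K := by
      rw [Subgroup.mem_center_iff]
      intro k
      apply e.injective
      rw [map_mul, map_mul, MulEquiv.apply_symm_apply]
      induction e k using QuotientGroup.induction_on with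
      | H g =>
        rw [← QuotientGroup.mk_mul, ← QuotientGroup.mk_mul, (Subgroup.mem_center_iff.mp hc) g]
    rw [hK, Subgroup.mem_bot] at hcq
    have h3 : (c : H ⧸ Z) = 1 := by
      have := congrArg e hcq
      rwa [MulEquiv.apply_symm_apply, map_one] at this
    exact (QuotientGroup.eq_one_iff c).mp h3
  have heq : Subgroup.center H = Z := le_antisymm hle hZc
  refine ⟨by rw [heq]; exact hZ2, ⟨(QuotientGroup.quotientMulEquivOfEq heq).trans e.symm⟩, ?_⟩
  intro L hL
  apply hidx L
  rw [hL.index_eq_card, heq, hZ2]

/-- parity argument: a group generated by elements which are linked by odd braid relations and satisfy an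
odd relator has no subgroup of index two -/
theorem no_index_two {H : Type*} [Group H] (s : ℕ → H) (n : ℕ)
    (hgen : Subgroup.closure (s '' {i | i < n}) = ⊤)
    (par : ℕ → ℕ) (hpar : ∀ i < n, 0 < i → par i < i ∧ (s (par i) * s i) ^ 3 = 1)
    (w : List ℕ) (hw : ∀ i ∈ w, i < n) (hodd : w.length % 2 = 1) (hrel : (w.map s).prod = 1) :
    ∀ L : Subgroup H, L.index ≠ 2 := by
  intro L hL
  have hsame : ∀ i < n, (s i ∈ L ↔ s 0 ∈ L) := by
    intro i
    induction i using Nat.strong_induction_on with
    | _ i ih =>
      intro hi
      rcases Nat.eq_zero_or_pos i with rfl | hpos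
      · rfl
      · obtain ⟨h1, h2⟩ := hpar i hi hpos
        have h3 : s (par i) * s i ∈ L := by
          have h4 : (s (par i) * s i) ^ 2 ∈ L := Subgroup.sq_mem_of_index_two hL _
          have h5 : (s (par i) * s i) ^ 2 * (s (par i) * s i) ∈ L := by
            rw [← pow_succ, h2]; exact L.one_mem
          exact (Subgroup.mul_mem_cancel_left L h4).mp h5
        rw [Subgroup.mul_mem_iff_of_index_two hL] at h3
        rw [← h3]
        exact ih _ h1 (lt_trans h1 hi)
  by_cases h0 : s 0 ∈ L
  · have : (⊤ : Subgroup H) ≤ L := by
      rw [← hgen, Subgroup.closure_le]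
      rintro _ ⟨i, hi, rfl⟩
      exact (hsame i hi).mpr h0
    rw [top_le_iff.mp this, Subgroup.index_top] at hL
    omega
  · have hprod : ∀ u : List ℕ, (∀ i ∈ u, i < n) → ((u.map s).prod ∈ L ↔ u.length % 2 = 0) := by
      intro u
      induction u with
      | nil => intro _; simp [L.one_mem]
      | cons i u ih =>
        intro hu
        have h1 := ih (fun j hj => hu j (List.mem_cons_of_mem _ hj))
        have h2 : ¬ s i ∈ L := fun h => h0 ((hsame i (hu i List.mem_cons_self)).mp h)
        rw [List.map_cons, List.prod_cons, Subgroup.mul_mem_iff_of_index_two hL, h1, List.length_cons]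
        constructor
        · intro h
          by_contra hcon
          have : u.length % 2 = 0 := by omega
          exact h2 (h.mpr this)
        · intro h
          constructor
          · intro h3; exact absurd h3 h2
          · intro h3; omega
    have := (hprod w hw).mp (by rw [hrel]; exact L.one_mem)
    omega

/-- a simple group with two non-commuting elements has trivial centre -/
theorem center_eq_bot_of_simple {K : Type*} [Group K] [IsSimpleGroup K] (a b : K) (hab : a * b ≠ b * a) :
    Subgroup.center K = ⊥ := by
  rcases IsSimpleGroup.eq_bot_or_eq_top_of_normal (Subgroup.center K) inferInstance with h | h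
  · exact h
  · exfalso
    apply hab
    have : b ∈ Subgroup.center K := by rw [h]; exact Subgroup.mem_top b
    exact (Subgroup.mem_center_iff.mp this) a

end Cfsg.Agent.Lib.Helper28
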