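import Cfsg.Agent.Lib.Helper28.TCChain

/-!
# Embedding a simple presented group into another group (helper28)
-/

set_option autoImplicit false

namespace Cfsg.Agent.Lib.Helper28

/-- substitution of words for letters -/
theorem evalW_flatMap {Γ : Type*} [Group Γ] (val : ℕ → Γ) (ex : ℕ → List ℕ) (w : List ℕ) :
    evalW (fun x => evalW val (ex x)) w = evalW val (w.flatMap ex) := by
  induction w with
  | nil => rfl
  | cons x w ih => rw [evalW_cons, List.flatMap_cons, evalW_append, ih]

namespace PD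

variable {α : Type} [DecidableEq α] {P : PD α} {Γ : Type*} [Group Γ]

/-- the homomorphism from a presented group given by values of the letters -/
theorem OK.exists_hom (hP : P.OK) (hK : ∀ w ∈ P.words, ∀ y ∈ w, y < P.K)
    (hlet : ∀ x < P.K, (∃ a, x = P.enc a) ∨ (∃ a, x = P.inv (P.enc a) ∧ P.lfree x = (FreeGroup.of a)⁻¹))
    (v : ℕ → Γ) (hW : ∀ w ∈ P.words, evalW v w = 1) (hinv : ∀ x < P.K, v (P.inv x) = (v x)⁻¹) :
    ∃ f : PresentedGroup P.rels →* Γ, ∀ x < P.K, f (PresentedGroup.mk P.rels (P.lfree x)) = v x := by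
  let fgen : α → Γ := fun a => v (P.enc a)
  have hl : ∀ x < P.K, FreeGroup.lift fgen (P.lfree x) = v x := by
    intro x hx
    rcases hlet x hx with ⟨a, rfl⟩ | ⟨a, rfl, h2⟩
    · rw [(hP.enc a).1]; exact FreeGroup.lift_apply_of
    · rw [h2, map_inv, hinv _ (hP.enc a).2]
      congr 1
      exact FreeGroup.lift_apply_of
  have fsat : ∀ r ∈ P.rels, FreeGroup.lift fgen r = 1 := by
    apply hP.sat_of_words
    intro w hw
    rw [Prob.evalW_congr (fun y hy => hl y (hK w hw y hy))]
    exact hW w hw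
  exact ⟨PresentedGroup.toGroup fsat, fun x hx => hl x hx⟩

/-- a simple presented group embeds as soon as one letter has a nontrivial value -/
theorem OK.exists_embedding (hP : P.OK) (hK : ∀ w ∈ P.words, ∀ y ∈ w, y < P.K)
    (hlet : ∀ x < P.K, (∃ a, x = P.enc a) ∨ (∃ a, x = P.inv (P.enc a) ∧ P.lfree x = (FreeGroup.of a)⁻¹))
    (hs : IsSimpleGroup (PresentedGroup P.rels))
    (v : ℕ → Γ) (hW : ∀ w ∈ P.words, evalW v w = 1) (hinv : ∀ x < P.K, v (P.inv x) = (v x)⁻¹)
    (x0 : ℕ) (hx0 : x0 < P.K) (hne : v x0 ≠ 1) :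
    ∃ f : PresentedGroup P.rels →* Γ, Function.Injective f ∧
      ∀ x < P.K, f (PresentedGroup.mk P.rels (P.lfree x)) = v x := by
  obtain ⟨f, hf⟩ := hP.exists_hom hK hlet v hW hinv
  refine ⟨f, ?_, hf⟩
  rcases hs.eq_bot_or_eq_top_of_normal f.ker inferInstance with h | h
  · exact (MonoidHom.ker_eq_bot_iff f).mp h
  · exfalso
    apply hne
    rw [← hf x0 hx0]
    have : PresentedGroup.mk P.rels (P.lfree x0) ∈ f.ker := by rw [h]; exact Subgroup.mem_top _
    exact this

end PD

/-- transport of a simple subgroup of given order along an isomorphism -/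
theorem exists_simple_subgroup_of_embedding {A B C : Type*} [Group A] [Group B] [Group C]
    (hs : IsSimpleGroup A) (N : ℕ) (hA : Nat.card A = N) (f : A →* B) (hf : Function.Injective f)
    (e : B ≃* C) : ∃ K : Subgroup C, IsSimpleGroup K ∧ Nat.card K = N := by
  let g : A →* C := e.toMonoidHom.comp f
  have hg : Function.Injective g := e.injective.comp hf
  let E : A ≃* g.range := MonoidHom.ofInjective hg
  exact ⟨g.range, E.symm.isSimpleGroup, by rw [← Nat.card_congr E.toEquiv]; exact hA⟩

end Cfsg.Agent.Lib.Helper28
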