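import Cfsg.Agent.Lib.Helper28.Fi22L1C0
import Cfsg.Agent.Lib.Helper28.Fi22L1C1
import Cfsg.Agent.Lib.Helper28.Fi22L1C2
import Cfsg.Agent.Lib.Helper28.Fi22L1C3

set_option autoImplicit false
set_option maxRecDepth 100000

namespace Cfsg.Agent.Lib.Helper28.Fi22L1

open Cfsg.Agent.Lib.Helper28

theorem check_all : ∀ c < D.m, D.checkLabel c = true := by
  intro c hc
  have hc' : c < 15890 := hc
  by_cases h0 : c < 1500
  · exact allRange_iff.mp chk_0 c (by omega) (by omega)
  by_cases h1 : c < 3000
  · exact allRange_iff.mp chk_1 c (by omega) (by omega)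
  by_cases h2 : c < 4500
  · exact allRange_iff.mp chk_2 c (by omega) (by omega)
  by_cases h3 : c < 6000
  · exact allRange_iff.mp chk_3 c (by omega) (by omega)
  by_cases h4 : c < 7500
  · exact allRange_iff.mp chk_4 c (by omega) (by omega)
  by_cases h5 : c < 9000
  · exact allRange_iff.mp chk_5 c (by omega) (by omega)
  by_cases h6 : c < 10500
  · exact allRange_iff.mp chk_6 c (by omega) (by omega)
  by_cases h7 : c < 12000
  · exact allRange_iff.mp chk_7 c (by omega) (by omega)
  by_cases h8 : c < 13500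
  · exact allRange_iff.mp chk_8 c (by omega) (by omega)
  by_cases h9 : c < 15000
  · exact allRange_iff.mp chk_9 c (by omega) (by omega)
  by_cases h10 : c < 15890
  · exact allRange_iff.mp chk_10 c (by omega) (by omega)
  omega
theorem pairs_ok : pairsC.all (pairOK (relsAll relsL (fun x => x) 10) (fun x => x) 9 10) = true := by decide +kernel
theorem relsK_ok : ∀ r ∈ relsAll relsL (fun x => x) 10, ∀ y ∈ r, y < 10 := by decide +kernel
theorem core : Lk.Core (Cfsg.Agent.Lib.Helper28.Fi22PD.pd.words) Cfsg.Agent.Lib.Helper28.Fi22PD.pd.inv Cfsg.Agent.Lib.Helper28.Fi22PD.pd.K [1, 2, 3, 4, 5, 6, 7, 8] where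
  Kall := rfl
  invK := by decide +kernel
  invE := rfl
  relsIn := by decide +kernel
  Dpairs := rfl
  pairs := pairs_ok
  relsK := relsK_ok
  isSub := by
    intro x hx
    have hx' : subL.contains x = true := hx
    show x ∈ subL
    simpa using hx'
  sub := by decide +kernel
  check := check_all
theorem fin_all : allBelow D.finalLabel 15890 = true := by decide +kernel
theorem live_count : D.liveCount = 14080 := by decide +kernel
theorem h0_ok : D.tg D.K 0 = 0 := by decide +kernel
theorem ok : Lk.OK (Cfsg.Agent.Lib.Helper28.Fi22PD.pd.words) Cfsg.Agent.Lib.Helper28.Fi22PD.pd.inv Cfsg.Agent.Lib.Helper28.Fi22PD.pd.K [0, 1, 2, 3, 4, 5, 6, 7, 8] [1, 2, 3, 4, 5, 6, 7, 8] where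
  toCore := core
  gens := by decide +kernel
  hm := by decide
  h0 := h0_ok
  fin := allBelow_iff.mp fin_all
  count := live_count

end Cfsg.Agent.Lib.Helper28.Fi22L1

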