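import Cfsg.Agent.Lib.Helper28.Fi22n3510Orb
import Cfsg.Agent.Lib.Helper28.Fi22n3510Stab
import Cfsg.Agent.Lib.Helper28.Fi22n3510Coll
import Cfsg.Agent.Lib.Helper28.Fi22Chain
import Cfsg.Agent.Lib.Helper28.TCSimple

set_option autoImplicit false
set_option maxRecDepth 100000

namespace Cfsg.Agent.Lib.Helper28.Fi22n3510

open Cfsg.Agent.Lib.Helper28

theorem oid_lt : allBelow (fun c => Nat.blt (O.oid c) 3) 3510 = true := by decide +kernel
theorem oid_zero : O.oid 0 = 0 := by decide +kernel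
theorem cnt_eq : ∀ k < 3, O.count Q k = [1, 2816, 693].getD k 0 := by
  intro k hk
  interval_cases k
  · exact count_0
  · exact count_1
  · exact count_2
theorem arith0 : ∀ I ∈ (Finset.range 3).powerset, 0 ∈ I → (∑ k ∈ I, [1, 2816, 693].getD k 0) ∣ 3510 →
    I = {0} ∨ I = Finset.range 3 := by decide +kernel
theorem sum_cnt (I : Finset ℕ) (hI : I ∈ (Finset.range 3).powerset) :
    ∑ k ∈ I, O.count Q k = ∑ k ∈ I, [1, 2816, 693].getD k 0 :=
  Finset.sum_congr rfl (fun k hk => cnt_eq k (Finset.mem_range.mp (Finset.mem_powerset.mp hI hk)))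
theorem arith : ∀ I ∈ (Finset.range 3).powerset, 0 ∈ I → (∑ k ∈ I, O.count Q k) ∣ Q.n →
    I = {0} ∨ I = Finset.range 3 := by
  intro I hI h0 hd
  rw [sum_cnt I hI] at hd
  exact arith0 I hI h0 hd
theorem sum_all : ∑ k ∈ Finset.range 3, O.count Q k = Q.n := by
  rw [sum_cnt _ (Finset.mem_powerset.mpr (Finset.Subset.refl _))]
  decide +kernel
def xw : List ℕ := [0, 1, 2, 3, 4, 5, 7, 8]
theorem x_chk : allBelow (fun c => L.checkRel (List.replicate (13 ^ 1) xw).flatten c) 3510 = true := by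
  decide +kernel
theorem range_eq : List.range Q.P.K = [0, 1, 2, 3, 4, 5, 6, 7, 8] := by decide +kernel
theorem ub : Finite (Sg Q.val (List.range Q.P.K)) ∧ Nat.card (Sg Q.val (List.range Q.P.K)) ≤ 64561751654400 := by
  rw [range_eq]
  obtain ⟨f, c⟩ := Fi22Chain.bound_0 Q.val ok.val_words ok.val_inv
  exact ⟨f, le_trans c (by norm_num)⟩
theorem main : IsSimpleGroup Q.Grp ∧ Nat.card Q.Grp = 64561751654400 ∧ Function.Injective (Prob.phi ok) :=
  Prob.OK.simple O ok O_ok hS1 3 (fun c hc => lt_of_blt (allBelow_iff.mp oid_lt c hc)) count_0 oid_zero sum_all arith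
    64561751654400 ub levels chain_ok levels_prod 13 1 1 (by norm_num) (by decide +kernel) (by norm_num) (by norm_num)
    xw (by decide +kernel) (allBelow_iff.mp x_chk) Fi22n3510Coll.Lk Fi22n3510Coll.ok rfl

end Cfsg.Agent.Lib.Helper28.Fi22n3510
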