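import Cfsg.Agent.Lib.Helper28.TCProb
import Cfsg.Prelude.Def_Spor_Fi23

set_option autoImplicit false

namespace Cfsg.Agent.Lib.Helper28.Fi23PD

open Cfsg.Agent.Lib.Helper28 Cfsg.Spor
def lfree : ℕ → FreeGroup Cfsg.Spor.Fi23.Gen
  | 0 => Cfsg.Spor.Fi23.a
  | 1 => Cfsg.Spor.Fi23.b
  | 2 => Cfsg.Spor.Fi23.c
  | 3 => Cfsg.Spor.Fi23.d
  | 4 => Cfsg.Spor.Fi23.e
  | 5 => Cfsg.Spor.Fi23.f
  | 6 => Cfsg.Spor.Fi23.g
  | 7 => Cfsg.Spor.Fi23.j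
  | 8 => Cfsg.Spor.Fi23.h
  | _ => Cfsg.Spor.Fi23.i
def inv : ℕ → ℕ
  | 0 => 0
  | 1 => 1
  | 2 => 2
  | 3 => 3
  | 4 => 4
  | 5 => 5
  | 6 => 6
  | 7 => 7
  | 8 => 8
  | 9 => 9
  | x => x
def enc : Cfsg.Spor.Fi23.Gen → ℕ
  | .a => 0
  | .b => 1
  | .c => 2
  | .d => 3
  | .e => 4
  | .f => 5
  | .g => 6
  | .j => 7
  | .h => 8
  | .i => 9
def extraE : List WExp := [
  (.pow (.mul (.mul (.mul (.mul (.mul (.mul (.mul (.mul (.g 3) (.g 2)) (.g 1)) (.g 3)) (.g 4)) (.g 5)) (.g 3)) (.g 8)) (.g 9)) 10),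
  (.pow (.mul (.mul (.mul (.mul (.mul (.mul (.g 0) (.g 1)) (.g 2)) (.g 3)) (.g 4)) (.g 5)) (.g 8)) 9)]
def pd : PD Cfsg.Spor.Fi23.Gen where
  edges := Cfsg.Spor.Fi23.edges
  extra := Cfsg.Spor.Fi23.extra
  K := 10
  lfree := lfree
  inv := inv
  enc := enc
  nodesL := [.a, .b, .c, .d, .e, .f, .g, .j, .h, .i]
  extraE := extraE
theorem pd_ok : pd.OK where
  extra := rfl
  extraK := by decide
  enc := by intro a; cases a <;> exact ⟨rfl, by decide⟩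
  nodes1 := by decide
  nodes2 := by decide
  inv := by
    intro x hx
    have hx' : x < 10 := hx
    interval_cases x
    · exact ⟨by decide, Or.inr ⟨rfl, .a, by decide, rfl⟩⟩
    · exact ⟨by decide, Or.inr ⟨rfl, .b, by decide, rfl⟩⟩
    · exact ⟨by decide, Or.inr ⟨rfl, .c, by decide, rfl⟩⟩
    · exact ⟨by decide, Or.inr ⟨rfl, .d, by decide, rfl⟩⟩
    · exact ⟨by decide, Or.inr ⟨rfl, .e, by decide, rfl⟩⟩
    · exact ⟨by decide, Or.inr ⟨rfl, .f, by decide, rfl⟩⟩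
    · exact ⟨by decide, Or.inr ⟨rfl, .g, by decide, rfl⟩⟩
    · exact ⟨by decide, Or.inr ⟨rfl, .j, by decide, rfl⟩⟩
    · exact ⟨by decide, Or.inr ⟨rfl, .h, by decide, rfl⟩⟩
    · exact ⟨by decide, Or.inr ⟨rfl, .i, by decide, rfl⟩⟩

theorem pd_letters : ∀ x < pd.K, (∃ a, x = pd.enc a) ∨ (∃ a, x = pd.inv (pd.enc a) ∧ pd.lfree x = (FreeGroup.of a)⁻¹) := by
  intro x hx
  have hx' : x < 10 := hx
  interval_cases x
  · exact Or.inl ⟨.a, rfl⟩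
  · exact Or.inl ⟨.b, rfl⟩
  · exact Or.inl ⟨.c, rfl⟩
  · exact Or.inl ⟨.d, rfl⟩
  · exact Or.inl ⟨.e, rfl⟩
  · exact Or.inl ⟨.f, rfl⟩
  · exact Or.inl ⟨.g, rfl⟩
  · exact Or.inl ⟨.j, rfl⟩
  · exact Or.inl ⟨.h, rfl⟩
  · exact Or.inl ⟨.i, rfl⟩

theorem pd_wordsK : ∀ w ∈ pd.words, ∀ y ∈ w, y < pd.K := by decide +kernel

end Cfsg.Agent.Lib.Helper28.Fi23PD
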