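import Cfsg.Agent.Lib.Helper28.TCSimple

/-!
# The word problem by base images (helper28)

If the order of a permutation group equals the product of the orbit lengths of a stabiliser chain, an
element fixing all base points is trivial.
-/

set_option autoImplicit false

namespace Cfsg.Agent.Lib.Helper28

/-- the pointwise stabiliser of a list of points in a subgroup -/
def fixB (A : Subgroup (Equiv.Perm ℕ)) : List ℕ → Subgroup (Equiv.Perm ℕ)
  | [] => A
  | b :: bs => fixB (A ⊓ MulAction.stabilizer (Equiv.Perm ℕ) b) bs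

theorem mem_fixB {A : Subgroup (Equiv.Perm ℕ)} {bs : List ℕ} {g : Equiv.Perm ℕ} (hg : g ∈ A)
    (hb : ∀ b ∈ bs, g b = b) : g ∈ fixB A bs := by
  induction bs generalizing A with
  | nil => exact hg
  | cons b bs ih =>
    exact ih (A := A ⊓ MulAction.stabilizer (Equiv.Perm ℕ) b) ⟨hg, hb b List.mem_cons_self⟩
      (fun c hc => hb c (List.mem_cons_of_mem _ hc))

namespace LB

variable {L : LB}

theorem Valid.card_ge' (V : L.Valid) : ∀ (levels : List Lev) (prev : List ℕ) (A : Subgroup (Equiv.Perm ℕ)),
    Finite A → (∀ b ∈ prev, b < L.n) →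
    (∀ u : List ℕ, (∀ y ∈ u, y < L.K) → (∀ b ∈ prev, L.traceN u b = b) → elt V u ∈ A) →
    chainOK L prev levels →
    (levels.map Lev.cnt).prod * Nat.card (fixB A (levels.map Lev.b)) ≤ Nat.card A := by
  intro levels
  induction levels with
  | nil =>
    intro prev A hA _ _ _
    simp [fixB]
  | cons E rest ih =>
    intro prev A hA hprev hmem hok
    obtain ⟨hE, hrest⟩ := hok
    let O : Finset ℕ := (Finset.range L.n).filter (fun c => Nat.xor (E.flag c) 1 = 0)
    have hcard : O.card = E.cnt := by
      rw [← hE.count]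
      unfold Lev.count
      rw [countZero_eq, zero_add]
    have hO : ∀ c ∈ O, ∃ t ∈ A, t • E.b = c := by
      intro c hc
      obtain ⟨hc1, hc2⟩ := Finset.mem_filter.mp hc
      have hf : E.flag c ≠ 0 := by
        intro h0
        rw [h0] at hc2
        exact absurd hc2 (by decide)
      obtain ⟨u, hu1, hu2, hu3⟩ := V.lev_reach E prev hprev hE _ c rfl (Finset.mem_range.mp hc1) hf
      exact ⟨elt V u, hmem u hu1 hu2, by rw [Equiv.Perm.smul_def, elt_apply V u hu1, hu3]⟩
    have h1 := card_ge_of_orbit A hA E.b O hO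
    have hA' : Finite (A ⊓ MulAction.stabilizer (Equiv.Perm ℕ) E.b : Subgroup (Equiv.Perm ℕ)) :=
      Finite.of_injective _ (Subgroup.inclusion_injective (inf_le_left : A ⊓ _ ≤ A))
    have h2 := ih (E.b :: prev) (A ⊓ MulAction.stabilizer (Equiv.Perm ℕ) E.b) hA'
      (by
        intro b hb
        rcases List.mem_cons.mp hb with rfl | hb
        · exact hE.hb
        · exact hprev b hb)
      (by
        intro u hu1 hu2
        refine ⟨hmem u hu1 (fun b hb => hu2 b (List.mem_cons_of_mem _ hb)), ?_⟩
        show elt V u • E.b = E.b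
        rw [Equiv.Perm.smul_def, elt_apply V u hu1]
        exact hu2 _ List.mem_cons_self)
      hrest
    rw [List.map_cons, List.prod_cons, List.map_cons, ← hcard, mul_assoc]
    exact le_trans (Nat.mul_le_mul_left _ h2) h1

end LB

namespace Prob

variable {α : Type} [DecidableEq α] {Q : Prob α} {S : Set (FreeGroup α)}

/-- an element fixing the base is trivial -/
theorem OK.eq_one_of_base (h : Q.OK S) (hinj : Function.Injective (phi h)) (N : ℕ) (hN : 0 < N)
    (hcard : Nat.card Q.Grp = N) (levels : List Lev) (hchain : chainOK Q.L [] levels)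
    (hprod : (levels.map Lev.cnt).prod = N) (g : Q.Grp)
    (hg : ∀ b ∈ levels.map Lev.b, phi h g b = b) : g = 1 := by
  have hfin : Finite Q.Grp := Nat.finite_of_card_ne_zero (by omega)
  have hf : Finite (phi h).range := Finite.of_surjective _ (phi h).rangeRestrict_surjective
  have h1 := h.valid.card_ge' levels [] (phi h).range hf (by simp) (by
    intro u hu _
    refine ⟨(evalW Q.val u)⁻¹, ?_⟩
    rw [map_inv, h.phi_evalW u (fun y hy => by rw [← h.LK]; exact hu y hy)]
    rfl) hchain
  have h2 : Nat.card (phi h).range ≤ N := by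
    rw [← hcard]
    exact Nat.card_le_card_of_surjective _ (phi h).rangeRestrict_surjective
  rw [hprod] at h1
  have h3 : Nat.card (fixB (phi h).range (levels.map Lev.b)) ≤ 1 := by
    by_contra hcon
    have : N * 2 ≤ N * Nat.card (fixB (phi h).range (levels.map Lev.b)) :=
      Nat.mul_le_mul_left _ (by omega)
    omega
  have h4 : phi h g ∈ fixB (phi h).range (levels.map Lev.b) := mem_fixB ⟨g, rfl⟩ hg
  have hle : ∀ (A : Subgroup (Equiv.Perm ℕ)) (bs : List ℕ), fixB A bs ≤ A := by
    intro A bs
    induction bs generalizing A with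
    | nil => exact le_refl _
    | cons b bs ih => exact le_trans (ih _) inf_le_left
  have hf2 : Finite (fixB (phi h).range (levels.map Lev.b)) :=
    Finite.of_injective _ (Subgroup.inclusion_injective (hle _ _))
  have h5 : Subsingleton (fixB (phi h).range (levels.map Lev.b)) :=
    (Finite.card_le_one_iff_subsingleton).mp h3
  have h6 : (⟨phi h g, h4⟩ : fixB (phi h).range (levels.map Lev.b)) = 1 := Subsingleton.elim _ _
  apply hinj
  rw [map_one]
  exact congrArg Subtype.val h6

/-- a word fixing the base is trivial -/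
theorem OK.word_eq_one_of_base (h : Q.OK S) (hinj : Function.Injective (phi h)) (N : ℕ) (hN : 0 < N)
    (hcard : Nat.card Q.Grp = N) (levels : List Lev) (hchain : chainOK Q.L [] levels)
    (hprod : (levels.map Lev.cnt).prod = N) (hb : ∀ b ∈ levels.map Lev.b, b < Q.n) (w : List ℕ)
    (hw : ∀ y ∈ w, y < Q.P.K)
    (hchk : ∀ b ∈ levels.map Lev.b, ptrace Q.L.pt w b = b + 1) : evalW Q.val w = 1 := by
  rw [← inv_eq_one]
  apply h.eq_one_of_base hinj N hN hcard levels hchain hprod
  intro b hbm
  rw [h.phi_word w hw]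
  have h1 := hchk b hbm
  rw [h.valid.ptrace_eq w (fun y hy => by rw [h.LK]; exact hw y hy) (by rw [h.Ln]; exact hb b hbm)] at h1
  omega

/-- a word moving a point is not trivial -/
theorem OK.word_ne_one (h : Q.OK S) (w : List ℕ) (hw : ∀ y ∈ w, y < Q.P.K) (c : ℕ) (hc : c < Q.n)
    (hchk : ptrace Q.L.pt w c ≠ c + 1) : evalW Q.val w ≠ 1 := by
  intro he
  apply hchk
  rw [h.valid.ptrace_eq w (fun y hy => by rw [h.LK]; exact hw y hy) (by rw [h.Ln]; exact hc),
    ← h.phi_word w hw, he, inv_one, map_one, Equiv.Perm.one_apply]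

end Prob

end Cfsg.Agent.Lib.Helper28
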