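import Cfsg.Agent.Lib.Helper28.Fi23n31671Simple
import Cfsg.Agent.Lib.Helper28.Fi22n3510Simple
import Cfsg.Agent.Lib.Helper28.TCBase
import Cfsg.Agent.Lib.Helper28.DoubleCover

/-!
# The subgroup `⟨a, …, i⟩` of the presented `Fi₂₃` is a non-split double cover of the presented `Fi₂₂` (helper28)
-/

set_option autoImplicit false
set_option maxRecDepth 100000

namespace Cfsg.Agent.Lib.Helper28.Fi23Cover

open Cfsg.Agent.Lib.Helper28
open Cfsg.Agent.Lib.Helper28.Fi23n31671 (Q S ok levels chain_ok levels_prod L)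

/-- the group `Fi₂₃` -/
abbrev G : Type := Q.Grp
/-- the subgroup -/
noncomputable abbrev H : Subgroup G := Prob.HS Q S
/-- the group `Fi₂₂` -/
abbrev K : Type := Fi22n3510.Q.Grp

theorem word_one (w : List ℕ) (hw : ∀ y ∈ w, y < 10)
    (hchk : ∀ b ∈ levels.map Lev.b, ptrace L.pt w b = b + 1) : evalW Q.val w = 1 :=
  ok.word_eq_one_of_base Fi23n31671.main.2.2 4089470473293004800 (by norm_num) Fi23n31671.main.2.1 levels
    chain_ok levels_prod (by decide +kernel) w hw hchk

/-- letters of `Fi₂₂` to letters of `Fi₂₃` -/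
def ren : ℕ → ℕ
  | 7 => 8
  | 8 => 9
  | x => x

theorem val_mem : ∀ i < 9, Q.val (ren i) ∈ H := by
  intro i hi
  interval_cases i
  all_goals
    rw [Prob.val_lt (Q := Q) (by decide)]
    exact Subgroup.mem_map_of_mem _ (Subgroup.subset_closure (by simp [Q, ren, Fi23PD.pd, Fi23PD.lfree]))

/-- the generators, in the subgroup -/
noncomputable def s (i : ℕ) : H := if h : i < 9 then ⟨Q.val (ren i), val_mem i h⟩ else 1

theorem s_coe {i : ℕ} (h : i < 9) : (s i : G) = Q.val (ren i) := by
  unfold s; rw [dif_pos h]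

theorem evalW_s (w : List ℕ) (hw : ∀ i ∈ w, i < 9) : ((evalW s w : H) : G) = evalW Q.val (w.map ren) := by
  induction w with
  | nil => rfl
  | cons i w ih =>
    rw [evalW_cons, List.map_cons, evalW_cons, Subgroup.coe_mul, s_coe (hw i List.mem_cons_self),
      ih (fun j hj => hw j (List.mem_cons_of_mem _ hj))]

theorem evalW_s_one (w : List ℕ) (hw : ∀ i ∈ w, i < 9) (h : evalW Q.val (w.map ren) = 1) :
    evalW s w = 1 := by
  apply Subtype.ext
  rw [evalW_s w hw, h]; rfl

/-- the word of the central involution, in letters of `Fi₂₂` -/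
def zw : List ℕ := (List.replicate 9 [1, 2, 3, 4, 5, 6, 7]).flatten

/-- the central involution -/
noncomputable def z : H := evalW s zw

theorem zw_lt : ∀ i ∈ zw, i < 9 := by decide +kernel

theorem z_sq : z * z = 1 := by
  unfold z
  rw [← evalW_append]
  exact evalW_s_one _ (by decide +kernel) (word_one _ (by decide +kernel) (by decide +kernel))

theorem z_ne : z ≠ 1 := by
  intro h
  have h1 : (z : G) = 1 := by rw [h]; rfl
  unfold z at h1
  rw [evalW_s zw zw_lt] at h1
  exact ok.word_ne_one (zw.map ren) (by decide +kernel) 1 (by decide) (by decide +kernel) h1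

theorem s_sq : ∀ i < 9, s i * s i = 1 := by
  intro i hi
  have h := evalW_s_one [i, i] (by simpa using hi) (by
    interval_cases i <;> exact ok.val_words _ (by decide +kernel))
  simpa using h

theorem sz_sq : ∀ i < 9, (s i * z) * (s i * z) = 1 := by
  intro i hi
  have h := evalW_s_one ((i :: zw) ++ (i :: zw)) (by
    intro j hj
    simp only [List.mem_append, List.mem_cons, or_self] at hj
    rcases hj with rfl | hj
    · exact hi
    · exact zw_lt j hj) (by
    interval_cases i <;> exact word_one _ (by decide +kernel) (by decide +kernel))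
  rw [evalW_append, evalW_cons] at h
  exact h

theorem s_comm : ∀ i < 9, s i * z = z * s i := by
  intro i hi
  have h1 := sz_sq i hi
  have h2 := s_sq i hi
  have h3 := z_sq
  have e1 : s i * z = (s i * z)⁻¹ := eq_inv_of_mul_eq_one_left h1
  have e2 : (s i)⁻¹ = s i := (eq_inv_of_mul_eq_one_left h2).symm
  have e3 : z⁻¹ = z := (eq_inv_of_mul_eq_one_left h3).symm
  rw [e1, mul_inv_rev, e2, e3]

theorem gen_top : Subgroup.closure (s '' {i | i < 9}) = ⊤ := by
  rw [eq_top_iff]
  have hle : H ≤ (Subgroup.closure (s '' {i | i < 9})).map H.subtype := by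
    rw [Subgroup.map_le_iff_le_comap, Subgroup.closure_le]
    intro t ht
    simp only [S, Set.mem_insert_iff, Set.mem_singleton_iff] at ht
    have key : ∀ i < 9, PresentedGroup.mk Q.P.rels (Q.P.lfree (ren i)) ∈
        (Subgroup.closure (s '' {i | i < 9})).map H.subtype := by
      intro i hi
      refine ⟨s i, Subgroup.subset_closure ⟨i, hi, rfl⟩, ?_⟩
      show (s i : G) = _
      rw [s_coe hi, Prob.val_lt (Q := Q) (by interval_cases i <;> decide)]
    rcases ht with rfl | rfl | rfl | rfl | rfl | rfl | rfl | rfl | rfl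
    · exact key 0 (by decide)
    · exact key 1 (by decide)
    · exact key 2 (by decide)
    · exact key 3 (by decide)
    · exact key 4 (by decide)
    · exact key 5 (by decide)
    · exact key 6 (by decide)
    · exact key 7 (by decide)
    · exact key 8 (by decide)
  intro h _
  obtain ⟨h', hh', e⟩ := hle h.2
  have : h' = h := Subtype.ext e
  rw [← this]; exact hh'

theorem z_central : z ∈ Subgroup.center H := by
  have hle : (⊤ : Subgroup H) ≤ Subgroup.centralizer {z} := by
    rw [← gen_top, Subgroup.closure_le]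
    rintro _ ⟨i, hi, rfl⟩
    show s i ∈ Subgroup.centralizer {z}
    rw [Subgroup.mem_centralizer_singleton_iff]
    exact s_comm i hi
  rw [Subgroup.mem_center_iff]
  intro g
  have := hle (Subgroup.mem_top g)
  rw [Subgroup.mem_centralizer_singleton_iff] at this
  exact this

/-- the central subgroup of order two -/
noncomputable def Z : Subgroup H := Subgroup.zpowers z

theorem Z_le : Z ≤ Subgroup.center H := by
  unfold Z
  rw [Subgroup.zpowers_le]
  exact z_central

instance Z_normal : Z.Normal where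
  conj_mem := by
    intro n hn g
    have h1 := Subgroup.mem_center_iff.mp (Z_le hn) g
    rw [h1, mul_inv_cancel_right]
    exact hn

theorem Z_card : Nat.card Z = 2 := by
  unfold Z
  rw [Nat.card_zpowers]
  exact orderOf_eq_prime (by rw [pow_two]; exact z_sq) z_ne

theorem words_cases : ∀ w ∈ Fi22PD.pd.words, w.map ren ∈ Fi23PD.pd.words ∨ w = zw := by decide +kernel

/-- images of the generators of `Fi₂₂` -/
noncomputable def fgen (a : Cfsg.Spor.Fi22.Gen) : H ⧸ Z := QuotientGroup.mk' Z (s (Fi22PD.pd.enc a))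

theorem lift_lfree : ∀ x < 9, FreeGroup.lift fgen (Fi22PD.pd.lfree x) = QuotientGroup.mk' Z (s x) := by
  intro x hx
  interval_cases x <;> exact FreeGroup.lift_apply_of

theorem fsat : ∀ r ∈ Fi22PD.pd.rels, FreeGroup.lift fgen r = 1 := by
  apply Fi22PD.pd_ok.sat_of_words
  intro w hw
  have hwK : ∀ y ∈ w, y < 9 := Fi22PD.pd_wordsK w hw
  have e : evalW (fun x => FreeGroup.lift fgen (Fi22PD.pd.lfree x)) w =
      evalW (fun x => QuotientGroup.mk' Z (s x)) w :=
    Prob.evalW_congr (fun y hy => lift_lfree y (hwK y hy))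
  rw [e, ← map_evalW]
  rcases words_cases w hw with h | h
  · rw [evalW_s_one w hwK (ok.val_words _ h), map_one]
  · rw [h]
    exact (QuotientGroup.eq_one_iff _).mpr (Subgroup.mem_zpowers z)

/-- the homomorphism from `Fi₂₂` -/
noncomputable def f : K →* H ⧸ Z := PresentedGroup.toGroup fsat

theorem f_surj : Function.Surjective f := by
  rw [← MonoidHom.range_eq_top, eq_top_iff]
  have hle : (Subgroup.closure (s '' {i | i < 9})).map (QuotientGroup.mk' Z) ≤ f.range := by
    rw [Subgroup.map_le_iff_le_comap, Subgroup.closure_le]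
    rintro _ ⟨i, hi, rfl⟩
    show QuotientGroup.mk' Z (s i) ∈ f.range
    have hi' : i < 9 := hi
    rw [← lift_lfree i hi']
    exact ⟨PresentedGroup.mk _ (Fi22PD.pd.lfree i), rfl⟩
  intro q _
  obtain ⟨h, rfl⟩ := QuotientGroup.mk'_surjective Z q
  apply hle
  exact ⟨h, by rw [gen_top]; exact Subgroup.mem_top h, rfl⟩

theorem card_H : Nat.card H = 2 * Nat.card K := by
  have h1 : Nat.card H * H.index = Nat.card G := H.card_mul_index
  rw [Fi23n31671.main.2.1, ok.index.1] at h1
  rw [Fi22n3510.main.2.1]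
  have h2 : Q.n = 31671 := rfl
  rw [h2] at h1
  omega

theorem center_K : Subgroup.center K = ⊥ := by
  have := Fi22n3510.main.1
  apply center_eq_bot_of_simple (Fi22n3510.Q.val 0) (Fi22n3510.Q.val 1)
  intro hab
  have h0 : Fi22n3510.Q.val 0 * Fi22n3510.Q.val 0 = 1 := by
    have := Fi22n3510.ok.val_words [0, 0] (by decide +kernel)
    simpa using this
  have h1 : Fi22n3510.Q.val 1 * Fi22n3510.Q.val 1 = 1 := by
    have := Fi22n3510.ok.val_words [1, 1] (by decide +kernel)
    simpa using this
  apply Fi22n3510.ok.word_ne_one [0, 1, 0, 1] (by decide) 0 (by decide) (by decide +kernel)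
  simp only [evalW_cons, evalW_nil, mul_one]
  calc Fi22n3510.Q.val 0 * (Fi22n3510.Q.val 1 * (Fi22n3510.Q.val 0 * Fi22n3510.Q.val 1))
      = Fi22n3510.Q.val 0 * ((Fi22n3510.Q.val 1 * Fi22n3510.Q.val 0) * Fi22n3510.Q.val 1) := by group
    _ = Fi22n3510.Q.val 0 * ((Fi22n3510.Q.val 0 * Fi22n3510.Q.val 1) * Fi22n3510.Q.val 1) := by rw [hab]
    _ = (Fi22n3510.Q.val 0 * Fi22n3510.Q.val 0) * (Fi22n3510.Q.val 1 * Fi22n3510.Q.val 1) := by group
    _ = 1 := by rw [h0, h1, one_mul]

/-- parents in the diagram -/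
def par : ℕ → ℕ
  | 7 => 3
  | 8 => 7
  | x => x - 1

theorem braid : ∀ i < 9, 0 < i → par i < i ∧ (s (par i) * s i) ^ 3 = 1 := by
  intro i hi hpos
  have h : par i < i ∧ evalW s [par i, i, par i, i, par i, i] = 1 := by
    interval_cases i
    all_goals
      refine ⟨by decide, evalW_s_one _ (by decide) (ok.val_words _ (by decide +kernel))⟩
  refine ⟨h.1, ?_⟩
  have h2 := h.2
  simp only [evalW_cons, evalW_nil, mul_one] at h2
  rw [← h2]
  simp only [pow_succ, pow_zero, one_mul, mul_assoc]

theorem no_idx2 : ∀ M : Subgroup H, M.index ≠ 2 :=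
  no_index_two s 9 gen_top par braid (List.replicate 9 [0, 1, 2, 3, 4, 5, 7]).flatten (by decide +kernel)
    (by decide +kernel)
    (evalW_s_one _ (by decide +kernel) (ok.val_words _ (by decide +kernel)))

theorem main : Cfsg.IsNonsplitDoubleCover H K := by
  have hfin : Finite K := Nat.finite_of_card_ne_zero (by rw [Fi22n3510.main.2.1]; norm_num)
  exact nonsplit_double_cover hfin Z Z_le Z_card center_K card_H f f_surj no_idx2

end Cfsg.Agent.Lib.Helper28.Fi23Cover
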