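import Cfsg.Agent.Lib.Helper28.Fi23n31671ChkL0
import Cfsg.Agent.Lib.Helper28.Fi23n31671ChkL1
import Cfsg.Agent.Lib.Helper28.Fi23n31671ChkL2
import Cfsg.Agent.Lib.Helper28.Fi23n31671ChkL3
import Cfsg.Agent.Lib.Helper28.Fi23n31671ChkL4
import Cfsg.Agent.Lib.Helper28.Fi23n31671ChkL5
import Cfsg.Agent.Lib.Helper28.Fi23n31671ChkL6

set_option autoImplicit false
set_option maxRecDepth 100000

namespace Cfsg.Agent.Lib.Helper28.Fi23n31671

open Cfsg.Agent.Lib.Helper28
theorem lrel_all : ∀ w ∈ Cfsg.Agent.Lib.Helper28.Fi23PD.pd.words, ∀ c < L.n, L.checkRel w c = true := by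
  intro w hw c hc
  have hc' : c < 31671 := hc
  by_cases h0 : c < 1617
  · exact allList_iff.mp (allRange_iff.mp lrel_0 c (by omega) (by omega)) w hw
  by_cases h1 : c < 3234
  · exact allList_iff.mp (allRange_iff.mp lrel_1 c (by omega) (by omega)) w hw
  by_cases h2 : c < 4851
  · exact allList_iff.mp (allRange_iff.mp lrel_2 c (by omega) (by omega)) w hw
  by_cases h3 : c < 6468
  · exact allList_iff.mp (allRange_iff.mp lrel_3 c (by omega) (by omega)) w hw
  by_cases h4 : c < 8085
  · exact allList_iff.mp (allRange_iff.mp lrel_4 c (by omega) (by omega)) w hw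
  by_cases h5 : c < 9702
  · exact allList_iff.mp (allRange_iff.mp lrel_5 c (by omega) (by omega)) w hw
  by_cases h6 : c < 11319
  · exact allList_iff.mp (allRange_iff.mp lrel_6 c (by omega) (by omega)) w hw
  by_cases h7 : c < 12936
  · exact allList_iff.mp (allRange_iff.mp lrel_7 c (by omega) (by omega)) w hw
  by_cases h8 : c < 14553
  · exact allList_iff.mp (allRange_iff.mp lrel_8 c (by omega) (by omega)) w hw
  by_cases h9 : c < 16170
  · exact allList_iff.mp (allRange_iff.mp lrel_9 c (by omega) (by omega)) w hw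
  by_cases h10 : c < 17787
  · exact allList_iff.mp (allRange_iff.mp lrel_10 c (by omega) (by omega)) w hw
  by_cases h11 : c < 19404
  · exact allList_iff.mp (allRange_iff.mp lrel_11 c (by omega) (by omega)) w hw
  by_cases h12 : c < 21021
  · exact allList_iff.mp (allRange_iff.mp lrel_12 c (by omega) (by omega)) w hw
  by_cases h13 : c < 22638
  · exact allList_iff.mp (allRange_iff.mp lrel_13 c (by omega) (by omega)) w hw
  by_cases h14 : c < 24255
  · exact allList_iff.mp (allRange_iff.mp lrel_14 c (by omega) (by omega)) w hw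
  by_cases h15 : c < 25872
  · exact allList_iff.mp (allRange_iff.mp lrel_15 c (by omega) (by omega)) w hw
  by_cases h16 : c < 27489
  · exact allList_iff.mp (allRange_iff.mp lrel_16 c (by omega) (by omega)) w hw
  by_cases h17 : c < 29106
  · exact allList_iff.mp (allRange_iff.mp lrel_17 c (by omega) (by omega)) w hw
  by_cases h18 : c < 30723
  · exact allList_iff.mp (allRange_iff.mp lrel_18 c (by omega) (by omega)) w hw
  by_cases h19 : c < 31671
  · exact allList_iff.mp (allRange_iff.mp lrel_19 c (by omega) (by omega)) w hw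
  omega

end Cfsg.Agent.Lib.Helper28.Fi23n31671
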