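import Cfsg.Agent.Lib.Helper28.Fi23n31671Data

set_option autoImplicit false
set_option maxRecDepth 100000

namespace Cfsg.Agent.Lib.Helper28.Fi23n31671

open Cfsg.Agent.Lib.Helper28
theorem chk_8 : allRange D.checkLabel 12000 1500 = true := by decide +kernel
theorem chk_9 : allRange D.checkLabel 13500 1500 = true := by decide +kernel
theorem chk_10 : allRange D.checkLabel 15000 1500 = true := by decide +kernel
theorem chk_11 : allRange D.checkLabel 16500 1500 = true := by decide +kernel

end Cfsg.Agent.Lib.Helper28.Fi23n31671
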