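import Cfsg.Agent.Lib.Helper28.TCSimple

/-!
# The first link of an order chain from an index theorem (helper28)
-/

set_option autoImplicit false

namespace Cfsg.Agent.Lib.Helper28.Prob

variable {α : Type} [DecidableEq α] {Q : Prob α} {S : Set (FreeGroup α)}

theorem OK.card_le_of_sub (h : Q.OK S) (Λ : List ℕ)
    (hS : ∀ s ∈ S, PresentedGroup.mk Q.P.rels s ∈ Sg Q.val Λ) (hB : Finite (Sg Q.val Λ)) :
    Finite (Sg Q.val (List.range Q.P.K)) ∧
      Nat.card (Sg Q.val (List.range Q.P.K)) ≤ Q.n * Nat.card (Sg Q.val Λ) := by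
  have hle : HS Q S ≤ Sg Q.val Λ := by
    rw [Subgroup.map_le_iff_le_comap, Subgroup.closure_le]
    intro s hs
    exact hS s hs
  have hfH : Finite (HS Q S) := Finite.of_injective _ (Subgroup.inclusion_injective hle)
  have hc : Nat.card (HS Q S) ≤ Nat.card (Sg Q.val Λ) :=
    Nat.card_le_card_of_injective _ (Subgroup.inclusion_injective hle)
  have h1 : Nat.card (HS Q S) * (HS Q S).index = Nat.card Q.Grp := (HS Q S).card_mul_index
  rw [h.index.1] at h1
  have hn : 0 < Q.n := lt_of_le_of_lt (Nat.zero_le _) (h.index.2.2.1 1)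
  have hpos : 0 < Nat.card (HS Q S) := Nat.card_pos
  have hG : Finite Q.Grp := Nat.finite_of_card_ne_zero (by rw [← h1]; positivity)
  rw [h.Sg_top]
  refine ⟨inferInstance, ?_⟩
  rw [Subgroup.card_top, ← h1, Nat.mul_comm]
  exact Nat.mul_le_mul_left _ hc

end Cfsg.Agent.Lib.Helper28.Prob
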