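import Cfsg.Agent.Lib.Helper28.Fi23n31671Orb
import Cfsg.Agent.Lib.Helper28.Fi23n31671Stab
import Cfsg.Agent.Lib.Helper28.Fi23n31671Coll
import Cfsg.Agent.Lib.Helper28.Fi23Chain
import Cfsg.Agent.Lib.Helper28.TCSimple2

set_option autoImplicit false
set_option maxRecDepth 100000

namespace Cfsg.Agent.Lib.Helper28.Fi23n31671

open Cfsg.Agent.Lib.Helper28

theorem oid_lt : allBelow (fun c => Nat.blt (O.oid c) 3) 31671 = true := by decide +kernel
theorem oid_zero : O.oid 0 = 0 := by decide +kernel
theorem cnt_eq : ∀ k < 3, O.count Q k = [1, 28160, 3510].getD k 0 := by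
  intro k hk
  interval_cases k
  · exact count_0
  · exact count_1
  · exact count_2
theorem arith0 : ∀ I ∈ (Finset.range 3).powerset, 0 ∈ I → (∑ k ∈ I, [1, 28160, 3510].getD k 0) ∣ 31671 →
    I = {0} ∨ I = Finset.range 3 := by decide +kernel
theorem sum_cnt (I : Finset ℕ) (hI : I ∈ (Finset.range 3).powerset) :
    ∑ k ∈ I, O.count Q k = ∑ k ∈ I, [1, 28160, 3510].getD k 0 :=
  Finset.sum_congr rfl (fun k hk => cnt_eq k (Finset.mem_range.mp (Finset.mem_powerset.mp hI hk)))
theorem arith : ∀ I ∈ (Finset.range 3).powerset, 0 ∈ I → (∑ k ∈ I, O.count Q k) ∣ Q.n →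
    I = {0} ∨ I = Finset.range 3 := by
  intro I hI h0 hd
  rw [sum_cnt I hI] at hd
  exact arith0 I hI h0 hd
theorem sum_all : ∑ k ∈ Finset.range 3, O.count Q k = Q.n := by
  rw [sum_cnt _ (Finset.mem_powerset.mpr (Finset.Subset.refl _))]
  decide +kernel
def xw : List ℕ := [0, 1, 2, 3, 4, 5, 6, 7, 8]
theorem x_chk_0 : allRange (fun c => L.checkRel (List.replicate (17 ^ 1) xw).flatten c) 0 3921 = true := by
  decide +kernel
theorem x_chk_1 : allRange (fun c => L.checkRel (List.replicate (17 ^ 1) xw).flatten c) 3921 3921 = true := by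
  decide +kernel
theorem x_chk_2 : allRange (fun c => L.checkRel (List.replicate (17 ^ 1) xw).flatten c) 7842 3921 = true := by
  decide +kernel
theorem x_chk_3 : allRange (fun c => L.checkRel (List.replicate (17 ^ 1) xw).flatten c) 11763 3921 = true := by
  decide +kernel
theorem x_chk_4 : allRange (fun c => L.checkRel (List.replicate (17 ^ 1) xw).flatten c) 15684 3921 = true := by
  decide +kernel
theorem x_chk_5 : allRange (fun c => L.checkRel (List.replicate (17 ^ 1) xw).flatten c) 19605 3921 = true := by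
  decide +kernel
theorem x_chk_6 : allRange (fun c => L.checkRel (List.replicate (17 ^ 1) xw).flatten c) 23526 3921 = true := by
  decide +kernel
theorem x_chk_7 : allRange (fun c => L.checkRel (List.replicate (17 ^ 1) xw).flatten c) 27447 3921 = true := by
  decide +kernel
theorem x_chk_8 : allRange (fun c => L.checkRel (List.replicate (17 ^ 1) xw).flatten c) 31368 303 = true := by
  decide +kernel
theorem x_chk : ∀ c < Q.L.n, Q.L.checkRel (List.replicate (17 ^ 1) xw).flatten c = true := by
  intro c hc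
  have hc' : c < 31671 := hc
  by_cases h0 : c < 3921
  · exact allRange_iff.mp x_chk_0 c (by omega) (by omega)
  by_cases h1 : c < 7842
  · exact allRange_iff.mp x_chk_1 c (by omega) (by omega)
  by_cases h2 : c < 11763
  · exact allRange_iff.mp x_chk_2 c (by omega) (by omega)
  by_cases h3 : c < 15684
  · exact allRange_iff.mp x_chk_3 c (by omega) (by omega)
  by_cases h4 : c < 19605
  · exact allRange_iff.mp x_chk_4 c (by omega) (by omega)
  by_cases h5 : c < 23526
  · exact allRange_iff.mp x_chk_5 c (by omega) (by omega)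
  by_cases h6 : c < 27447
  · exact allRange_iff.mp x_chk_6 c (by omega) (by omega)
  by_cases h7 : c < 31368
  · exact allRange_iff.mp x_chk_7 c (by omega) (by omega)
  by_cases h8 : c < 31671
  · exact allRange_iff.mp x_chk_8 c (by omega) (by omega)
  omega
theorem range_eq : List.range Q.P.K = [0, 1, 2, 3, 4, 5, 6, 7, 8, 9] := by decide +kernel
theorem ub : Finite (Sg Q.val (List.range Q.P.K)) ∧ Nat.card (Sg Q.val (List.range Q.P.K)) ≤ 4089470473293004800 := by
  obtain ⟨f, c⟩ := Fi23Chain.bound_1 Q.val ok.val_words ok.val_inv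
  obtain ⟨f', c'⟩ := ok.card_le_of_sub [0, 1, 2, 3, 4, 5, 6, 8, 9] (by
    intro s hs
    simp only [S, Set.mem_insert_iff, Set.mem_singleton_iff] at hs
    rcases hs with rfl | rfl | rfl | rfl | rfl | rfl | rfl | rfl | rfl
    · exact Subgroup.subset_closure ⟨0, by simp, Prob.val_lt (Q := Q) (by decide)⟩
    · exact Subgroup.subset_closure ⟨1, by simp, Prob.val_lt (Q := Q) (by decide)⟩
    · exact Subgroup.subset_closure ⟨2, by simp, Prob.val_lt (Q := Q) (by decide)⟩
    · exact Subgroup.subset_closure ⟨3, by simp, Prob.val_lt (Q := Q) (by decide)⟩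
    · exact Subgroup.subset_closure ⟨4, by simp, Prob.val_lt (Q := Q) (by decide)⟩
    · exact Subgroup.subset_closure ⟨5, by simp, Prob.val_lt (Q := Q) (by decide)⟩
    · exact Subgroup.subset_closure ⟨6, by simp, Prob.val_lt (Q := Q) (by decide)⟩
    · exact Subgroup.subset_closure ⟨8, by simp, Prob.val_lt (Q := Q) (by decide)⟩
    · exact Subgroup.subset_closure ⟨9, by simp, Prob.val_lt (Q := Q) (by decide)⟩
    ) f
  exact ⟨f', le_trans c' (le_trans (Nat.mul_le_mul_left _ c) (by norm_num [Q]))⟩
theorem main : IsSimpleGroup Q.Grp ∧ Nat.card Q.Grp = 4089470473293004800 ∧ Function.Injective (Prob.phi ok) :=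
  Prob.OK.simple O ok O_ok hS1 3 (fun c hc => lt_of_blt (allBelow_iff.mp oid_lt c hc)) count_0 oid_zero sum_all arith
    4089470473293004800 ub levels chain_ok levels_prod 17 1 1 (by norm_num) (by decide +kernel) (by norm_num) (by norm_num)
    xw (by decide +kernel) x_chk Fi23n31671Coll.Lk Fi23n31671Coll.ok rfl

end Cfsg.Agent.Lib.Helper28.Fi23n31671
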